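import Cfsg.Agent.Lib.J3.Num

/-!
A simple group of order 50232960: numerical checks for the prime 5.
-/

set_option autoImplicit false

namespace Cfsg.Lib.OC.J3

theorem num5 : ∀ e ∈ [2, 4], ∀ v ∈ divN, 50232960 % (e * (5 * v)) = 0 →
    50232960 / (e * (5 * v)) % 5 = 1 → v % 17 = 0 ∨ v % 19 = 0 ∨
    (e = 2 ∧ v ∈ [1, 6, 16, 36, 81, 96, 216, 486, 576, 1296, 7776]) ∨
    (e = 4 ∧ v ∈ [3, 8, 18, 48, 108, 243, 288, 648, 3888]) := by decide +kernel

theorem num5a : ∀ v ∈ [1, 6, 16, 36, 81, 96, 216, 486, 576, 1296, 7776],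
    chkD 5 2 v (fun d => decide (1 < d) && (r19 d && r17 d))
      (fun l => decide (l = [(-1, 324)] ∧ v ∈ [1, 6, 16, 96])) = true := by decide +kernel

theorem num5b : ∀ v ∈ [1, 6, 16, 36, 81, 96, 216, 486, 576, 1296, 7776],
    chkD 5 2 v (fun d => decide (1 < d) && r19 d)
      (fun l => !(btOK 17 good9 (sgD l) 1)) = true := by decide +kernel

theorem num5c : ∀ c ∈ cs, c % 128 = 0 → ∀ m ∈ cand 50232960 c (X5 c) 324,
    1 + m ^ 2 + 2 * (m - 1) ^ 2 ≤ c → 120 * (324 - m) % c = 0 → 120 * (324 - m) ≤ 30 * c →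
    c = 1920 := by decide +kernel

end Cfsg.Lib.OC.J3
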