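import Cfsg.Agent.Lib.J3.Num

/-!
A simple group of order 50232960: numerical checks for the prime 5.
-/

set_option autoImplicit false

namespace Cfsg.Lib.OC.J3

set_option maxHeartbeats 2000000 in
theorem num5e : ∀ v ∈ [3, 8, 18, 48, 108, 243, 288, 648, 3888],
    chkF v (fun d => decide (10 ≤ d) && (r19 d && r17 d)) (fun l =>
      (v == 108 && decide ((1, 2736) ∈ l)) || kill v l true) = true := by decide +kernel

end Cfsg.Lib.OC.J3
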