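import Cfsg.Agent.Lib.J3.Bad
import Cfsg.Agent.Lib.J3.Num5
import Cfsg.Agent.Lib.J3.Num5d
import Cfsg.Agent.Lib.J3.Num5e

/-!
A simple group of order 50232960: the prime 5 and central involutions.
-/

set_option autoImplicit false

namespace Cfsg.Lib.OC.J3

open Subgroup Finset

variable {G : Type*} [Group G] [Finite G] [IsSimpleGroup G] (hc : Nat.card G = 50232960)
include hc

theorem cases5 {y : G} (hy : orderOf y = 5) :
    (Nat.card (d1E hy) = 2 ∧
      Nat.card (d1V 5 y) ∈ [1, 6, 16, 36, 81, 96, 216, 486, 576, 1296, 7776] ∨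
    Nat.card (d1E hy) = 4 ∧ Nat.card (d1V 5 y) ∈ [3, 8, 18, 48, 108, 243, 288, 648, 3888]) ∧
    Nat.card (normalizer (zpowers y : Set G)) = Nat.card (d1E hy) * (5 * Nat.card (d1V 5 y)) := by
  obtain ⟨e, v, rfl, rfl, -, h2, h3, h4, -, h5⟩ := numer hc hy (hi5 hc hy)
  refine ⟨?_, h5⟩
  rcases num5 _ (by simpa using e5 hc hy) _ h2 h3 h4 with h | h | h
  · exact ((step5 hc hy).1 (Nat.dvd_of_mod_eq_zero h)).elim
  · exact ((step5 hc hy).2 (Nat.dvd_of_mod_eq_zero h)).elim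
  · exact h

theorem ten_le {y : G} (hy : orderOf y = 5)
    (h : Nat.card (d1V 5 y) ∈ [3, 8, 18, 48, 108, 243, 288, 648, 3888]) {χ : IrrCharacter G}
    (hχ : χ ∈ d1B0 5 G) (h0 : χ ≠ triv G) : decide (10 ≤ irrDeg χ) = true :=
  decide_eq_true (two_mul_le_deg (nc hc) hy (hi5 hc hy) (fun e => by simp [e] at h) hχ h0)

omit [IsSimpleGroup G] in
theorem omega2736 {y : G} (hy : orderOf y = 5) {σ : IrrCharacter G → ℤ} (F : Full 5 y σ)
    {l : List (IrrCharacter G)} (h2 : ∀ χ, χ ∈ triv G :: l ↔ χ ∈ d1B0 5 G)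
    (hv : Nat.card (d1V 5 y) = 108) (h : (1, 2736) ∈ l.map fun χ => (σ χ, irrDeg χ)) :
    ∃ χ : IrrCharacter G, irrDeg χ = 2736 ∧
      (centralizer ({y} : Set G)).index * χ.1 y = irrDeg χ * (34 : ℤ) := by
  obtain ⟨χ, h3, h4⟩ := List.mem_map.mp h
  obtain ⟨h5, h6⟩ := Prod.mk.inj h4
  refine ⟨χ, h6, ?_⟩
  rw [F.val χ ((h2 χ).mp (List.mem_cons_of_mem _ h3)) y hy.symm.dvd, h5, h6,
    idx_eq hc hy (hi5 hc hy) hv]
  norm_num

theorem not_case9 {x : G} (hx : orderOf x = 17) (he : Nat.card (d1E hx) = 16)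
    (hv : Nat.card (d1V 17 x) = 9) : False := by
  have := Fintype.ofFinite G
  have hi := hi17 hc hx
  obtain ⟨τ, F17⟩ := exists_full hx hi he
  have hg : ∀ χ, χ ≠ triv G → InB0 17 χ.1 → good9 (irrDeg χ) = true := fun χ h0 h => by
    have h1 := mem_d1B0.mpr h
    exact num17c _ (mem_tyM (by norm_num) hc mem_divN (F17.sign χ h1) (F17.deg hx h1)
      ((F17.dvd χ h1).trans (idx_eq hc hx hi hv).dvd) (by
        rw [decide_eq_true (two_mul_le_deg (nc hc) hx hi (by omega) h1 h0), r19_ok hc]; rfl))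
  obtain ⟨y, hy⟩ := ex hc 5 (by norm_num)
  have hj := hi5 hc hy
  obtain ⟨h1, h2⟩ | ⟨h1, h2⟩ := (cases5 hc hy).1
  · obtain ⟨D⟩ := d1_nonempty_data hy hj
    obtain ⟨s, hL, h3⟩ := chkD_sound hc hj D h1 rfl (fun χ _ h0 => by
      rw [decide_eq_true (one_lt_irrDeg (perf hc) h0), r19_ok hc]; rfl) (num5b _ h2)
    rw [bt_one hc hj hL (by norm_num) (step5 hc hy).1 (by norm_num) _ hg] at h3
    exact absurd h3 (by simp)
  obtain ⟨σ, F⟩ := exists_full hy hj h1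
  obtain ⟨l, l1, l2, h3⟩ := chkF_sound hc hy F rfl (fun χ hχ h0 => by
    rw [ten_le hc hy h2 hχ h0, r19_ok hc]; rfl) (num5d _ h2)
  obtain ⟨w, hw⟩ := exists_w8 hc hx
  rw [bt_F F hy hj l1 l2 (by norm_num) (step5 hc hy).1 (by rw [hc]; norm_num) _ hg,
    kill_sound hc hw (by simp) hy h1 F l1 l2 rfl] at h3
  simp only [Bool.not_true, Bool.false_or, Bool.or_false, Bool.and_eq_true, beq_iff_eq,
    decide_eq_true_eq] at h3
  obtain ⟨χ, h4, h5⟩ := omega2736 hc hy F l2 h3.1 h3.2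
  obtain ⟨a, ha⟩ := int_of_full hx he χ
  have h6 := dvd_sub_of_full hx he ha
  have h7 := sq_le_card_centralizer ha
  rw [(step17 hc hx).2.1, hv] at h7
  rw [h4] at h6
  norm_num at h7
  have h8 : -13 < a ∧ a < 13 := by constructor <;> nlinarith
  obtain ⟨i, h9⟩ := exists_conj_commute (p := 3) h5 (by norm_num) ha (by omega)
    (IsPGroup.of_card (n := 2) hv) d1V_le
  have hy' : orderOf (i * y * i⁻¹) = 5 := by rw [sm_orderOf_conj, hy]
  have h10 := card_centralizer_of_order hy hj hy'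
  rw [← card_d1V hy hj, h3.1] at h10
  have h11 := card_d1V hy' (hi5 hc hy')
  have h12 : Nat.card (d1V 5 (i * y * i⁻¹)) = 108 := by omega
  obtain ⟨⟨-, h13⟩ | ⟨h13, -⟩, h14⟩ := cases5 hc hy'
  · simp [h12] at h13
  · exact bad108 hc hx he hv hy' h10 (by rw [h14, h13, h12]) h9

theorem case1 {x : G} (hx : orderOf x = 17) :
    Nat.card (d1E hx) = 8 ∧ Nat.card (d1V 17 x) = 1 :=
  (step17 hc hx).1.resolve_right fun h => not_case9 hc hx h.1 h.2

theorem mem17 {χ : IrrCharacter G} (h : ¬ 17 ∣ irrDeg χ) : χ ∈ d1B0 17 G := by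
  have := Fintype.ofFinite G
  obtain ⟨x, hx⟩ := ex hc 17 (by norm_num)
  exact mem_B0_of_not_dvd hx (hi17 hc hx) (by rw [(step17 hc hx).2.1, (case1 hc hx).2]) h

theorem r17_ok (χ : IrrCharacter G) : r17 (irrDeg χ) = true := by
  obtain ⟨x, hx⟩ := ex hc 17 (by norm_num)
  simp only [r17, List.mem_cons, List.not_mem_nil, decide_eq_true_eq]
  by_cases h : 17 ∣ irrDeg χ
  · omega
  have := deg_mod hx (hi17 hc hx) (mem17 hc h) (case1 hc hx).1
  omega

theorem no_block {χ : IrrCharacter G} :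
    (irrDeg χ = 2736 → ¬ ∀ ψ : IrrCharacter G, SameBlock 3 χ.1 ψ.1 → 3 ^ 2 ∣ irrDeg ψ) ∧
    (irrDeg χ = 324 → ¬ ∀ ψ : IrrCharacter G, SameBlock 2 χ.1 ψ.1 → 2 ^ 2 ∣ irrDeg ψ) := by
  have := Fintype.ofFinite G
  obtain ⟨x, hx⟩ := ex hc 17 (by norm_num)
  have hi := hi17 hc hx
  obtain ⟨he, hv⟩ := case1 hc hx
  obtain ⟨D⟩ := d1_nonempty_data hx hi
  obtain ⟨s, hL, h1⟩ := chkD_sound hc hi D he hv (fun χ _ h0 => by
    rw [decide_eq_true (one_lt_irrDeg (perf hc) h0), r19_ok hc]; rfl) num17b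
  have h2 : irrDeg χ % 17 = 1 ∨ irrDeg χ % 17 = 16 → χ ∈ D.X := fun e =>
    ((D.mem_iff χ).mp (mem17 hc (by omega))).resolve_right fun ⟨k, e'⟩ => by
      have h3 := D.oc_deg_θ hi
      rw [he, ← D.irrDeg_θ k, e'] at h3
      rcases D.δ_eq with h4 | h4 <;> rw [h4] at h3 <;> omega
  simp only [Bool.and_eq_true, Bool.or_eq_true, Bool.not_eq_true', decide_eq_false_iff_not] at h1
  constructor <;> intro e h <;> have h3 := h2 (by omega) <;> have h4 := D.oc_deg_X h3 <;>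
    have h5 := List.mem_map_of_mem (f := D.ty) ((hL.mem χ).mpr ⟨h3, ne_triv_of_deg (by omega)⟩)
  · have h6 : D.ε χ = -1 := (D.ε_eq χ h3).resolve_left fun e' => by rw [e'] at h4; omega
    have h7 := bt_D hi hL (q := 3) (b := 5) (by norm_num) (by rw [hv]; norm_num)
      (by rw [hc]; norm_num) h3 (fun d => d % 9 == 0) fun ψ _ h8 =>
        beq_iff_eq.mpr (Nat.mod_eq_zero_of_dvd (h ψ h8))
    rw [D1Data.ty, h6, e] at h5
    rw [h6, e] at h7
    exact absurd (h7.symm.trans (h1.1.resolve_left (not_not.mpr h5))) (by simp)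
  · have h6 : D.ε χ = 1 := (D.ε_eq χ h3).resolve_right fun e' => by rw [e'] at h4; omega
    have h7 := bt_D hi hL (q := 2) (b := 7) (by norm_num) (by rw [hv]; norm_num)
      (by rw [hc]; norm_num) h3 (fun d => d % 4 == 0) fun ψ _ h8 =>
        beq_iff_eq.mpr (Nat.mod_eq_zero_of_dvd (h ψ h8))
    rw [D1Data.ty, h6, e] at h5
    rw [h6, e] at h7
    exact absurd (h7.symm.trans (h1.2.resolve_left (not_not.mpr h5))) (by simp)

theorem block5 {y : G} (hy : orderOf y = 5) : Nat.card (d1E hy) = 2 ∧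
    Nat.card (d1V 5 y) ∈ [1, 6, 16, 96] ∧ ∃ χ ∈ d1B0 5 G, irrDeg χ = 324 ∧ χ.1 y = -1 ∧
      ∀ t : G, orderOf t = 2 → 1 + ival χ t ^ 2 + 2 * (ival χ t - 1) ^ 2 ≤
        Nat.card (centralizer ({t} : Set G)) ∧
        ((Nat.card (centralizer ({t} : Set G)) * Nat.card (invSet y t) : ℕ) : ℤ) ^ 2 =
          2400 * Nat.card (d1V 5 y) * (324 - ival χ t) ^ 2 := by
  have := Fintype.ofFinite G
  have hj := hi5 hc hy
  obtain ⟨h1, h2⟩ | ⟨h1, h2⟩ := (cases5 hc hy).1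
  swap
  · obtain ⟨σ, F⟩ := exists_full hy hj h1
    obtain ⟨l, l1, l2, h3⟩ := chkF_sound hc hy F rfl (fun χ hχ h0 => by
      rw [ten_le hc hy h2 hχ h0, r19_ok hc, r17_ok hc]; rfl) (num5e _ h2)
    obtain ⟨x, hx⟩ := ex hc 17 (by norm_num)
    obtain ⟨w, hw⟩ := exists_w8 hc hx
    rw [kill_sound hc hw (fun _ => case1 hc hx) hy h1 F l1 l2 rfl] at h3
    simp only [Bool.or_false, Bool.and_eq_true, beq_iff_eq, decide_eq_true_eq] at h3
    obtain ⟨χ, h4, h5⟩ := omega2736 hc hy F l2 h3.1 h3.2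
    exact ((no_block hc).1 h4 fun ψ h6 => pow_dvd_deg h6 h5 (by norm_num)
      (by rw [idx_eq hc hy hj h3.1]; norm_num)).elim
  obtain ⟨D⟩ := d1_nonempty_data hy hj
  obtain ⟨s, hL, h3⟩ := chkD_sound hc hj D h1 rfl (fun χ _ h0 => by
    rw [decide_eq_true (one_lt_irrDeg (perf hc) h0), r19_ok hc, r17_ok hc]; rfl) (num5a _ h2)
  obtain ⟨h4, h5⟩ := of_decide_eq_true h3
  have h6 := hL.degree
  rw [h4] at h6
  obtain _ | ⟨χ, _ | _⟩ := s <;> simp [D1Data.ty] at h4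
  have hX := ((hL.mem χ).mp (by simp)).1
  have h7 : D.δ = -1 ∧ D.d = 323 := by
    rcases D.δ_eq with e | e <;> rw [e] at h6 ⊢ <;> simp at h6 ⊢ <;> omega
  refine ⟨h1, h5, χ, (D.mem_iff χ).mpr (Or.inl hX), h4.2, by
    rw [D.val_sing hj hX hy.symm.dvd, h4.1]; simp, fun t ht => ?_⟩
  have t2 : t ^ 2 = 1 := ht ▸ pow_orderOf_eq_one t
  have t5 : ¬ 5 ∣ orderOf t := by rw [ht]; norm_num
  have hint : ∀ ψ ∈ [χ], ∃ a : ℤ, ψ.1 t = a := fun ψ _ => exists_int_invol ψ.2.isCharacter t2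
  have h8 : (d1E hy).index = 2 := by
    have := card_d1E_mul_index hy
    rw [h1] at this; omega
  constructor
  · have h9 := norm_add_le (d1B0 5 G) List.nodup_nil (by simp) t
    rw [blk_norm hL h8 t5 hint, h7.1] at h9
    simp only [List.map_cons, List.map_nil, List.sum_cons, List.sum_nil, add_zero, h4.1] at h9
    have h10 : 1 + ival χ t ^ 2 + (2 : ℕ) * (-1 * (1 + -1 * ival χ t)) ^ 2 ≤
      Nat.card (centralizer ({t} : Set G)) := by exact_mod_cast h9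
    push_cast at h10
    linarith
  · have h9 := hL.sum_cmN hj t5 t5 (mem_zpowers y) (d1_ne_one hy)
    have h10 := mul_cmV hy hj (by norm_num) t2 t2
    rw [blk_ival_θ hL t5 hint, h7.1, h7.2, hc] at h9
    simp only [List.map_cons, List.map_nil, List.sum_cons, List.sum_nil, add_zero, h4.1, h4.2,
      coe_ival (hint χ (by simp))] at h9
    have h11 : (cmV 5 y t t y : ℂ) = (480 * Nat.card (d1V 5 y) * (324 - ival χ t) ^ 2 : ℤ) := by
      rw [h9]; push_cast; ring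
    have h12 : (cmV 5 y t t y : ℤ) = 480 * Nat.card (d1V 5 y) * (324 - ival χ t) ^ 2 := by
      exact_mod_cast h11
    have h13 := congrArg (Nat.cast : ℕ → ℤ) h10
    push_cast at h13 ⊢
    linear_combination 5 * h12 - h13

theorem main5 {y : G} (hy : orderOf y = 5) : Nat.card (d1V 5 y) = 6 := by
  obtain ⟨-, h1, χ, h2, h3, h4, h5⟩ := block5 hc hy
  obtain ⟨t, ht, -⟩ := exists_central hc
  obtain ⟨a, a1, -, -, a2, -⟩ := exists_invol_val (perf hc) (ne_triv_of_deg (χ := χ) (by omega)) ht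
  have h6 := (h5 t ht).2
  have h7 : ∀ A B : ℤ, A ^ 2 = 6 * B ^ 2 → B = 0 := fun A B e => by
    by_contra h
    have h8 : IsSquare ((6 : ℕ) : ℚ) := ⟨A / B, by
      have : (A : ℚ) ^ 2 = 6 * B ^ 2 := by exact_mod_cast e
      have : (B : ℚ) ≠ 0 := by exact_mod_cast h
      field_simp; push_cast; linarith⟩
    rw [Rat.isSquare_natCast_iff] at h8
    exact absurd h8 (by decide +kernel)
  rw [ival_eq a1] at h6
  simp only [List.mem_cons, List.not_mem_nil, or_false] at h1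
  rcases h1 with e | e | e | e
  · have := h7 _ (20 * (324 - a)) (by rw [h6, e]; push_cast; ring)
    omega
  · exact e
  · have := h7 _ (80 * (324 - a)) (by rw [h6, e]; push_cast; ring)
    omega
  · exact ((no_block hc).2 h3 fun ψ h8 => pow_dvd_deg h8 (y := y) (r := -323)
      (by rw [idx_eq hc hy (hi5 hc hy) e, h3, h4]; norm_num) (by norm_num)
      (by rw [idx_eq hc hy (hi5 hc hy) e]; norm_num)).elim

theorem five {y : G} (hy : orderOf y = 5) : Nat.card (centralizer ({y} : Set G)) = 30 ∧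
    Nat.card (normalizer (zpowers y : Set G)) = 60 := by
  rw [(cases5 hc hy).2, ← card_d1V hy (hi5 hc hy), (block5 hc hy).1, main5 hc hy]
  exact ⟨rfl, rfl⟩

theorem central {z : G} (hz : orderOf z = 2) (h : ¬ 2 ∣ (centralizer ({z} : Set G)).index) :
    Nat.card (centralizer ({z} : Set G)) = 1920 := by
  obtain ⟨y, hy⟩ := ex hc 5 (by norm_num)
  obtain ⟨-, -, χ, h2, h3, -, h5⟩ := block5 hc hy
  obtain ⟨h6, h7⟩ := h5 z hz
  have h0 := ne_triv_of_deg (χ := χ) (by omega)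
  obtain ⟨a, a1, -, -, a2, -⟩ := exists_invol_val (perf hc) h0 hz
  have h8 := X5_ok hc h2 hz
  have h9 := card_invSet_le (x := y) z
  rw [ival_eq a1] at h6 h7 h8
  rw [main5 hc hy] at h7
  rw [(five hc hy).1] at h9
  have h10 : ((Nat.card (centralizer ({z} : Set G)) * Nat.card (invSet y z) : ℕ) : ℤ) =
      120 * (324 - a) := (pow_left_inj₀ (Int.natCast_nonneg _) (by omega) two_ne_zero).mp
    (by rw [h7]; push_cast; ring)
  refine num5c _ (mem_cs hc hz) (Nat.mod_eq_zero_of_dvd (dvd128 hc h)) a (h3 ▸ mem_cand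
    (irrDeg_pos χ) (sq_le_card_centralizer a1) (invP_ok (perf hc) hz hc rfl h0 a1 h8)) h6 ?_ ?_
  · rw [← h10]; simp
  · rw [← h10, mul_comm]; exact_mod_cast Nat.mul_le_mul_right _ h9

end Cfsg.Lib.OC.J3
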